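import Cfsg.Agent.H209.IF.Kill
import Cfsg.Agent.H999.IF.EngB
import Cfsg.Agent.H680.IF.EngA
import Cfsg.Agent.LieClassical.SLGen

/-!
# S5719, cell `PSL four` (helper358): base

* `KillE.congr`;
* `At A` : the preimage of `A ≤ PSL ι F` in `SL ι F`;
* `cS g`, `cP g` : conjugation by `g ∈ GL ι F` on `SL ι F`, `PSL ι F`;
* `IFA A` : `∃ Γ, IF A Γ`; `IFA.conj`, `IFA.key`, `IFA.idx`.
-/

set_option autoImplicit false
set_option linter.unusedSectionVars false

namespace Cfsg.Agent.H358.IF

open Matrix Cfsg.Agent.H209.Fxy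

theorem killE_congr {T T' : Type*} [Group T] [Group T'] (e : T ≃* T') (h : KillE T) : KillE T' := by
  rintro A Γ hA ⟨t, ht, h2⟩
  refine h _ _ (hA.map e.symm) ⟨e.symm t, ⟨t, ht, rfl⟩, ?_⟩
  rw [MulEquiv.orderOf_eq, h2]

theorem map_center_equiv {G H : Type*} [Group G] [Group H] (e : G ≃* H) :
    (Subgroup.center G).map e.toMonoidHom = Subgroup.center H := by
  ext x
  constructor
  · rintro ⟨z, hz, rfl⟩
    have hz' := Subgroup.mem_center_iff.1 hz
    rw [Subgroup.mem_center_iff]
    intro y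
    obtain ⟨w, rfl⟩ := e.surjective y
    show e w * e z = e z * e w
    rw [← map_mul, hz' w, map_mul]
  · intro hx
    rw [Subgroup.mem_center_iff] at hx
    refine ⟨e.symm x, Subgroup.mem_center_iff.2 fun y => ?_, e.apply_symm_apply x⟩
    apply e.injective
    rw [map_mul, map_mul, e.apply_symm_apply, hx]

section Reindex

variable {ι ι' : Type} [Fintype ι] [DecidableEq ι] [Fintype ι'] [DecidableEq ι'] {F : Type} [Field F]

/-- Reindexing of `SL`. -/
def slR (e : ι ≃ ι') : SpecialLinearGroup ι F ≃* SpecialLinearGroup ι' F where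
  toFun A := ⟨Matrix.reindex e e A.1, by rw [Matrix.det_reindex_self]; exact A.2⟩
  invFun A := ⟨Matrix.reindex e.symm e.symm A.1, by rw [Matrix.det_reindex_self]; exact A.2⟩
  left_inv A := Subtype.ext (by ext i j; simp)
  right_inv A := Subtype.ext (by ext i j; simp)
  map_mul' A B := Subtype.ext (by
    show Matrix.reindex e e (A.1 * B.1) = Matrix.reindex e e A.1 * Matrix.reindex e e B.1
    exact map_mul (Matrix.reindexAlgEquiv F F e) A.1 B.1)

/-- Reindexing of `PSL`. -/
noncomputable def pslR (e : ι ≃ ι') : ProjectiveSpecialLinearGroup ι F ≃* ProjectiveSpecialLinearGroup ι' F :=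
  QuotientGroup.congr _ _ (slR e) (map_center_equiv _)

end Reindex

variable {ι : Type} [Fintype ι] [DecidableEq ι] {F : Type} [Field F]

/-- the projection -/
abbrev pr : SpecialLinearGroup ι F →* ProjectiveSpecialLinearGroup ι F :=
  QuotientGroup.mk' (Subgroup.center (SpecialLinearGroup ι F))

theorem pr_surj : Function.Surjective (pr : SpecialLinearGroup ι F →* _) := QuotientGroup.mk'_surjective _

theorem inv_mul_val (s : SpecialLinearGroup ι F) : (s⁻¹ : SpecialLinearGroup ι F).val * s.val = 1 :=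
  congrArg Subtype.val (inv_mul_cancel s)

theorem mul_inv_val (s : SpecialLinearGroup ι F) : s.val * (s⁻¹ : SpecialLinearGroup ι F).val = 1 :=
  congrArg Subtype.val (mul_inv_cancel s)

theorem mem_center_of_smul {s : SpecialLinearGroup ι F} {c : F} (h : s.val = c • (1 : Matrix ι ι F)) :
    s ∈ Subgroup.center (SpecialLinearGroup ι F) := by
  rw [Subgroup.mem_center_iff]
  intro g
  apply Subtype.ext
  show g.val * s.val = s.val * g.val
  rw [h, Matrix.mul_smul, Matrix.smul_mul, mul_one, one_mul]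

theorem exists_smul_of_mem_center {s : SpecialLinearGroup ι F} (h : s ∈ Subgroup.center (SpecialLinearGroup ι F)) :
    ∃ c : F, c ^ Fintype.card ι = 1 ∧ s.val = c • (1 : Matrix ι ι F) := by
  rw [Matrix.SpecialLinearGroup.mem_center_iff] at h
  obtain ⟨c, hc, h1⟩ := h
  refine ⟨c, hc, ?_⟩
  rw [← h1, Matrix.scalar_apply, ← Matrix.smul_one_eq_diagonal]

theorem pr_eq_iff {s t : SpecialLinearGroup ι F} : pr s = pr t ↔ ∃ c : F, t.val = c • s.val := by
  rw [QuotientGroup.mk'_apply, QuotientGroup.mk'_apply, QuotientGroup.eq]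
  constructor
  · intro h
    obtain ⟨c, -, hc⟩ := exists_smul_of_mem_center h
    refine ⟨c, ?_⟩
    have h1 : t = s * (s⁻¹ * t) := by group
    calc t.val = s.val * (s⁻¹ * t).val := congrArg Subtype.val h1
      _ = c • s.val := by rw [hc, Matrix.mul_smul, mul_one]
  · rintro ⟨c, hc⟩
    apply mem_center_of_smul (c := c)
    show (s⁻¹ : SpecialLinearGroup ι F).val * t.val = _
    rw [hc, Matrix.mul_smul, inv_mul_val]

/-- the preimage of `A` -/
abbrev At (A : Subgroup (ProjectiveSpecialLinearGroup ι F)) : Subgroup (SpecialLinearGroup ι F) := A.comap pr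

variable {A : Subgroup (ProjectiveSpecialLinearGroup ι F)}

theorem mem_At_of_smul {s t : SpecialLinearGroup ι F} {c : F} (h : t.val = c • s.val) (hs : s ∈ At A) : t ∈ At A := by
  have h1 : pr s = pr t := pr_eq_iff.2 ⟨c, h⟩
  rw [Subgroup.mem_comap] at hs ⊢
  rwa [← h1]

theorem eq_top_of_At (h : At A = ⊤) : A = ⊤ := by
  rw [Subgroup.eq_top_iff']
  intro x
  obtain ⟨s, rfl⟩ := pr_surj x
  have : s ∈ At A := by rw [h]; trivial
  exact this

theorem index_At : (At A).index = A.index := Subgroup.index_comap_of_surjective _ pr_surj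

/-- conjugation by `g ∈ GL` on `SL` -/
def cS (g : GL ι F) : SpecialLinearGroup ι F ≃* SpecialLinearGroup ι F where
  toFun s := ⟨g.val * s.val * (g⁻¹ : GL ι F).val, by
    rw [det_mul, det_mul, s.2, mul_one, ← det_mul, ← Units.val_mul, mul_inv_cancel, Units.val_one, det_one]⟩
  invFun s := ⟨(g⁻¹ : GL ι F).val * s.val * g.val, by
    rw [det_mul, det_mul, s.2, mul_one, ← det_mul, ← Units.val_mul, inv_mul_cancel, Units.val_one, det_one]⟩
  left_inv s := Subtype.ext (by
    show (g⁻¹ : GL ι F).val * (g.val * s.val * (g⁻¹ : GL ι F).val) * g.val = s.val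
    rw [mul_assoc, mul_assoc, mul_assoc, Units.inv_mul, mul_one, Units.inv_mul_cancel_left])
  right_inv s := Subtype.ext (by
    show g.val * ((g⁻¹ : GL ι F).val * s.val * g.val) * (g⁻¹ : GL ι F).val = s.val
    rw [mul_assoc, mul_assoc, mul_assoc, Units.mul_inv, mul_one, Units.mul_inv_cancel_left])
  map_mul' s t := Subtype.ext (by
    show g.val * (s.val * t.val) * (g⁻¹ : GL ι F).val =
      g.val * s.val * (g⁻¹ : GL ι F).val * (g.val * t.val * (g⁻¹ : GL ι F).val)
    simp only [mul_assoc, Units.inv_mul_cancel_left])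

theorem cS_val (g : GL ι F) (s : SpecialLinearGroup ι F) : (cS g s).val = g.val * s.val * (g⁻¹ : GL ι F).val := rfl

/-- conjugation on `PSL` -/
noncomputable def cP (g : GL ι F) : ProjectiveSpecialLinearGroup ι F ≃* ProjectiveSpecialLinearGroup ι F :=
  QuotientGroup.congr _ _ (cS g) (map_center_equiv _)

theorem cP_pr (g : GL ι F) (s : SpecialLinearGroup ι F) : cP g (pr s) = pr (cS g s) := rfl

/-- `A` belongs to a counterexample -/
def IFA (A : Subgroup (ProjectiveSpecialLinearGroup ι F)) : Prop :=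
  ∃ Γ : Subgroup (MulAut (ProjectiveSpecialLinearGroup ι F)), IF A Γ

/-- the conjugate of `A` -/
noncomputable abbrev cA (g : GL ι F) (A : Subgroup (ProjectiveSpecialLinearGroup ι F)) :
    Subgroup (ProjectiveSpecialLinearGroup ι F) := A.map (cP g).toMonoidHom

theorem IFA.conj (h : IFA A) (g : GL ι F) : IFA (cA g A) := by
  obtain ⟨Γ, h⟩ := h
  exact ⟨_, h.map (cP g)⟩

theorem mem_cA {g : GL ι F} {s : SpecialLinearGroup ι F} : cS g s ∈ At (cA g A) ↔ s ∈ At A := by
  rw [Subgroup.mem_comap, Subgroup.mem_comap, ← cP_pr]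
  exact Subgroup.mem_map_iff_mem (f := (cP g).toMonoidHom) (cP g).injective

theorem IFA.not_top (h : IFA A) (h1 : At A = ⊤) : False := by
  obtain ⟨Γ, h⟩ := h
  exact h.ne_top (eq_top_of_At h1)

theorem IFA.big (h : IFA A) : 729 < (At A).index := by
  obtain ⟨Γ, h⟩ := h
  rw [index_At]
  exact h.big

theorem exists_nc (h3 : 3 ≤ Fintype.card ι) : ∃ a b : ProjectiveSpecialLinearGroup ι F, a * b ≠ b * a := by
  by_contra hcon
  push Not at hcon
  have h1 : commutator (SpecialLinearGroup ι F) ≤ Subgroup.center (SpecialLinearGroup ι F) := by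
    rw [← QuotientGroup.ker_mk' (Subgroup.center (SpecialLinearGroup ι F)), commutator_def,
      Subgroup.commutator_le]
    intro a _ b _
    rw [MonoidHom.mem_ker, map_commutatorElement, commutatorElement_eq_one_iff_mul_comm]
    exact hcon _ _
  rw [LieClassical.SLGen.commutator_eq_top h3] at h1
  have h2 : commutator (SpecialLinearGroup ι F) ≤ ⊥ := by
    rw [commutator_def, Subgroup.commutator_le]
    intro a _ b _
    rw [Subgroup.mem_bot, commutatorElement_eq_one_iff_mul_comm]
    exact (Subgroup.mem_center_iff.1 (h1 (Subgroup.mem_top a)) b).symm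
  rw [LieClassical.SLGen.commutator_eq_top h3] at h2
  have : Nontrivial ι := Fintype.one_lt_card_iff_nontrivial.1 (by omega)
  obtain ⟨i, j, hij⟩ := exists_pair_ne ι
  have h4 : SpecialLinearGroup.transvection hij (1 : F) = 1 := h2 (Subgroup.mem_top _)
  have h5 := congrArg (fun s : SpecialLinearGroup ι F => s.val i j) h4
  simp [SpecialLinearGroup.transvection, Matrix.transvection, hij] at h5

theorem ord_pr {t : SpecialLinearGroup ι F} {c : F} (h1 : t.val * t.val = c • (1 : Matrix ι ι F))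
    (h2 : ∀ d : F, t.val ≠ d • (1 : Matrix ι ι F)) : orderOf (pr t) = 2 := by
  apply orderOf_eq_prime
  · rw [pow_two, ← map_mul, ← map_one pr, eq_comm, pr_eq_iff]
    exact ⟨c, h1⟩
  · intro h3
    rw [← map_one pr, eq_comm, pr_eq_iff] at h3
    obtain ⟨d, hd⟩ := h3
    exact h2 d hd

section Fin

variable [Fintype F]

theorem IFA.key (h3 : 3 ≤ Fintype.card ι) (h : IFA A) {t : SpecialLinearGroup ι F} (ht : t ∈ At A)
    (h2 : orderOf (pr t) = 2) {B : Subgroup (SpecialLinearGroup ι F)} (hB : ∀ b ∈ B, pr (b * t) = pr (t * b))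
    {C : Set (SpecialLinearGroup ι F)} (hC : ∀ c ∈ C, pr (c * t) = pr (t * c)) :
    (At A).relIndex B ^ 5 * C.ncard < Nat.card (SpecialLinearGroup ι F) ∧ (At A).relIndex B ^ 6 < (At A).index ∧
    (At A).index ^ 5 * C.ncard ^ 6 < Nat.card (SpecialLinearGroup ι F) ^ 6 := by
  obtain ⟨Γ, h⟩ := h
  have : IsSimpleGroup (ProjectiveSpecialLinearGroup ι F) := LieClassical.SLGen.psl_isSimpleGroup h3
  obtain ⟨-, -, -, h6, h5⟩ := H999.IFB.IF.E2' h (exists_nc h3) ht h2
  have hc : ∀ b : SpecialLinearGroup ι F, pr (b * t) = pr (t * b) → pr b ∈ Subgroup.centralizer {pr t} := by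
    intro b hb
    rw [Subgroup.mem_centralizer_singleton_iff, ← map_mul, ← map_mul]
    exact hb
  obtain ⟨h7, h8⟩ := h5 (B.map pr) (by
    rintro _ ⟨b, hb, rfl⟩
    exact hc b (hB b hb))
  have h9 : (At A).relIndex B = A.relIndex (B.map pr) := Subgroup.relIndex_comap _ _ _
  have h10 : C.ncard ≤ Nat.card ((Subgroup.centralizer {pr t}).comap pr : Subgroup (SpecialLinearGroup ι F)) := by
    rw [← Nat.card_coe_set_eq C]
    have hsub : C ⊆ (((Subgroup.centralizer {pr t}).comap pr : Subgroup (SpecialLinearGroup ι F)) :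
        Set (SpecialLinearGroup ι F)) := fun c hc' => hc c (hC c hc')
    exact Nat.card_mono (Set.toFinite _) hsub
  have h11 : (Subgroup.centralizer {pr t}).index * C.ncard ≤ Nat.card (SpecialLinearGroup ι F) := by
    rw [← Subgroup.index_comap_of_surjective _ (pr_surj (ι := ι) (F := F)),
      ← ((Subgroup.centralizer {pr t}).comap (pr : SpecialLinearGroup ι F →* _)).index_mul_card]
    exact Nat.mul_le_mul_left _ h10
  have hCpos : 0 < C.ncard ∨ C.ncard = 0 := by omega
  rw [h9, index_At]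
  have hS : 0 < Nat.card (SpecialLinearGroup ι F) := Nat.card_pos
  refine ⟨?_, h8, ?_⟩
  · rcases hCpos with h12 | h12
    · exact (Nat.mul_lt_mul_of_pos_right h7 h12).trans_le h11
    · rw [h12, mul_zero]
      exact hS
  · rcases hCpos with h12 | h12
    · calc A.index ^ 5 * C.ncard ^ 6 < (Subgroup.centralizer {pr t}).index ^ 6 * C.ncard ^ 6 :=
          Nat.mul_lt_mul_of_pos_right h6 (pow_pos h12 6)
        _ = ((Subgroup.centralizer {pr t}).index * C.ncard) ^ 6 := by rw [mul_pow]
        _ ≤ _ := Nat.pow_le_pow_left h11 6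
    · rw [h12, zero_pow (by norm_num), mul_zero]
      exact pow_pos hS 6

theorem index_mul_le {X : Set (SpecialLinearGroup ι F)} (hX : ∀ x ∈ X, x ∈ At A) :
    (At A).index * X.ncard ≤ Nat.card (SpecialLinearGroup ι F) := by
  rw [← (At A).index_mul_card, ← Nat.card_coe_set_eq X]
  exact Nat.mul_le_mul_left _ (Nat.card_mono (Set.toFinite _) hX)

end Fin

/-! ### transvections -/

/-- `X_ij ≤ A` -/
def Rt (A : Subgroup (ProjectiveSpecialLinearGroup ι F)) (i j : ι) : Prop :=
  ∀ (hij : i ≠ j) (a : F), SpecialLinearGroup.transvection hij a ∈ At A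

theorem Rt.left {i j k : ι} (h : Rt A i k) (hik : i ≠ k) (hkj : k ≠ j) {b : F} (hb : b ≠ 0)
    (hx : SpecialLinearGroup.transvection hkj b ∈ At A) : Rt A i j := by
  intro hij a
  have h1 := LieClassical.SLGen.commutator_transvection hij hik hkj (a * b⁻¹) b
  rw [mul_assoc, inv_mul_cancel₀ hb, mul_one] at h1
  rw [← h1, commutatorElement_def]
  exact mul_mem (mul_mem (mul_mem (h hik _) hx) (inv_mem (h hik _))) (inv_mem hx)

theorem Rt.right {i j k : ι} (h : Rt A k j) (hik : i ≠ k) (hkj : k ≠ j) {b : F} (hb : b ≠ 0)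
    (hx : SpecialLinearGroup.transvection hik b ∈ At A) : Rt A i j := by
  intro hij a
  have h1 := LieClassical.SLGen.commutator_transvection hij hik hkj b (b⁻¹ * a)
  rw [← mul_assoc, mul_inv_cancel₀ hb, one_mul] at h1
  rw [← h1, commutatorElement_def]
  exact mul_mem (mul_mem (mul_mem hx (h hkj _)) (inv_mem hx)) (inv_mem (h hkj _))

theorem Rt.trans {i j k : ι} (h1 : Rt A i k) (h2 : Rt A k j) (hik : i ≠ k) (hkj : k ≠ j) : Rt A i j :=
  h1.left hik hkj one_ne_zero (h2 hkj 1)

theorem IFA.not_all [Nontrivial ι] (h : IFA A) (hR : ∀ i j : ι, i ≠ j → Rt A i j) : False := by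
  apply h.not_top
  rw [← top_le_iff, ← LieClassical.SLGen.closure_transvections, Subgroup.closure_le]
  rintro _ ⟨i, j, hij, a, rfl⟩
  exact hR i j hij hij a

end Cfsg.Agent.H358.IF
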