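import Cfsg.Agent.H358.IF.Base

/-!
# S5719, cell `PSL four` (helper358): block matrices

Index type `Fin 2 ⊕ Fin 2`.  `dg d e hd : SL` is `diag(d, e)` for `d, e : M2(F)` with `det d * det e = 1`; `blk a b` for `a, b ∈ SL2`;
`up M`, `lo M` the block unipotent matrices `[[1,M],[0,1]]`, `[[1,0],[M,1]]`.
-/

set_option autoImplicit false
set_option linter.unusedSectionVars false

namespace Cfsg.Agent.H358.IF

open Matrix Cfsg.Agent.H209.Fxy

/-- index type -/
abbrev I4 := Fin 2 ⊕ Fin 2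

/-- `2 × 2` matrices -/
abbrev M2 (F : Type) := Matrix (Fin 2) (Fin 2) F

/-- `SL_2(F)` -/
abbrev S2 (F : Type) [Field F] := SpecialLinearGroup (Fin 2) F

/-- `SL_4(F)` -/
abbrev S4 (F : Type) [Field F] := SpecialLinearGroup I4 F

/-- `PSL_4(F)` -/
abbrev P4 (F : Type) [Field F] := ProjectiveSpecialLinearGroup I4 F

variable {F : Type} [Field F]

/-- `diag(d, e)` -/
def dg (d e : M2 F) (h : d.det * e.det = 1) : S4 F :=
  ⟨fromBlocks d 0 0 e, by rw [det_fromBlocks_zero₂₁, h]⟩

theorem dg_val (d e : M2 F) (h : d.det * e.det = 1) : (dg d e h).val = fromBlocks d 0 0 e := rfl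

theorem det_dg_aux (a b : S2 F) : a.val.det * b.val.det = 1 := by rw [a.2, b.2, mul_one]

/-- `diag(a, b)`, `a, b ∈ SL_2` -/
def blk : S2 F × S2 F →* S4 F where
  toFun x := dg x.1.val x.2.val (det_dg_aux _ _)
  map_one' := Subtype.ext fromBlocks_one
  map_mul' x y := Subtype.ext (by
    show fromBlocks (x.1.val * y.1.val) 0 0 (x.2.val * y.2.val) =
      fromBlocks x.1.val 0 0 x.2.val * fromBlocks y.1.val 0 0 y.2.val
    rw [fromBlocks_multiply]
    simp)

theorem blk_val (a b : S2 F) : (blk (a, b)).val = fromBlocks a.val 0 0 b.val := rfl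

/-- `diag(g, h)` for `g, h ∈ GL_2` -/
def gg (g h : GL (Fin 2) F) : GL I4 F where
  val := fromBlocks g.val 0 0 h.val
  inv := fromBlocks (g⁻¹ : GL (Fin 2) F).val 0 0 (h⁻¹ : GL (Fin 2) F).val
  val_inv := by
    rw [fromBlocks_multiply]
    simp
  inv_val := by
    rw [fromBlocks_multiply]
    simp

/-- the exchange of the two blocks -/
def sw : GL I4 F where
  val := fromBlocks 0 1 1 0
  inv := fromBlocks 0 1 1 0
  val_inv := by
    rw [fromBlocks_multiply]
    simp
  inv_val := by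
    rw [fromBlocks_multiply]
    simp

theorem sw_inv_val : ((sw : GL I4 F)⁻¹ : GL I4 F).val = fromBlocks 0 1 1 0 := rfl

theorem sw_val : (sw : GL I4 F).val = fromBlocks 0 1 1 0 := rfl

theorem gg_inv_val (g h : GL (Fin 2) F) : ((gg g h)⁻¹ : GL I4 F).val =
    fromBlocks (g⁻¹ : GL (Fin 2) F).val 0 0 (h⁻¹ : GL (Fin 2) F).val := rfl

theorem cS_sw_dg (d e : M2 F) (h : d.det * e.det = 1) :
    cS sw (dg d e h) = dg e d (by rw [mul_comm]; exact h) := by
  apply Subtype.ext
  rw [cS_val, dg_val, dg_val, sw_val, sw_inv_val, fromBlocks_multiply, fromBlocks_multiply]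
  simp

theorem cS_sw_blk (a b : S2 F) : cS sw (blk (a, b)) = blk (b, a) := cS_sw_dg _ _ (det_dg_aux a b)

theorem cS_gg_dg (g k : GL (Fin 2) F) (d e : M2 F) (h : d.det * e.det = 1)
    (h' : (g.val * d * (g⁻¹ : GL (Fin 2) F).val).det * (k.val * e * (k⁻¹ : GL (Fin 2) F).val).det = 1) :
    cS (gg g k) (dg d e h) = dg (g.val * d * (g⁻¹ : GL (Fin 2) F).val) (k.val * e * (k⁻¹ : GL (Fin 2) F).val) h' := by
  apply Subtype.ext
  rw [cS_val, dg_val, dg_val, gg_inv_val]
  show fromBlocks g.val 0 0 k.val * _ * _ = _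
  rw [fromBlocks_multiply, fromBlocks_multiply]
  simp

theorem cS_gg_blk (g k : GL (Fin 2) F) (a b : S2 F) : cS (gg g k) (blk (a, b)) = blk (cS g a, cS k b) :=
  cS_gg_dg g k _ _ (det_dg_aux a b) (det_dg_aux (cS g a) (cS k b))

/-- `[[1, M], [0, 1]]` -/
def up : Multiplicative (M2 F) →* S4 F where
  toFun M := ⟨fromBlocks 1 (Multiplicative.toAdd M) 0 1, by rw [det_fromBlocks_zero₂₁, det_one, mul_one]⟩
  map_one' := Subtype.ext fromBlocks_one
  map_mul' M N := Subtype.ext (by
    show fromBlocks 1 (Multiplicative.toAdd M + Multiplicative.toAdd N) 0 1 =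
      fromBlocks 1 (Multiplicative.toAdd M) 0 1 * fromBlocks 1 (Multiplicative.toAdd N) 0 1
    rw [fromBlocks_multiply]
    simp [add_comm])

/-- `[[1, 0], [M, 1]]` -/
def lo : Multiplicative (M2 F) →* S4 F where
  toFun M := ⟨fromBlocks 1 0 (Multiplicative.toAdd M) 1, by rw [det_fromBlocks_zero₁₂, det_one, mul_one]⟩
  map_one' := Subtype.ext fromBlocks_one
  map_mul' M N := Subtype.ext (by
    show fromBlocks 1 0 (Multiplicative.toAdd M + Multiplicative.toAdd N) 1 =
      fromBlocks 1 0 (Multiplicative.toAdd M) 1 * fromBlocks 1 0 (Multiplicative.toAdd N) 1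
    rw [fromBlocks_multiply]
    simp)

theorem up_val (M : M2 F) : (up (Multiplicative.ofAdd M)).val = fromBlocks 1 M 0 1 := rfl

theorem lo_val (M : M2 F) : (lo (Multiplicative.ofAdd M)).val = fromBlocks 1 0 M 1 := rfl

theorem cS_sw_up (M : M2 F) : cS sw (up (Multiplicative.ofAdd M)) = lo (Multiplicative.ofAdd M) := by
  apply Subtype.ext
  rw [cS_val, up_val, lo_val, sw_val, sw_inv_val, fromBlocks_multiply, fromBlocks_multiply]
  simp

theorem cS_sw_lo (M : M2 F) : cS sw (lo (Multiplicative.ofAdd M)) = up (Multiplicative.ofAdd M) := by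
  apply Subtype.ext
  rw [cS_val, up_val, lo_val, sw_val, sw_inv_val, fromBlocks_multiply, fromBlocks_multiply]
  simp

end Cfsg.Agent.H358.IF
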