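import Mathlib

/-!
# Subgroups of small index of `G × G` (helper358, S5719)
-/

set_option autoImplicit false
set_option linter.unusedSectionVars false

namespace Cfsg.Agent.H358.IF

open Subgroup

variable {G : Type*} [Group G] [Finite G]

theorem index_split (D : Subgroup (G × G)) :
    D.index = (D.map (MonoidHom.fst G G)).index * (D.comap (MonoidHom.inr G G)).index := by
  set D1 := D.map (MonoidHom.fst G G) with hD1
  set N := D.comap (MonoidHom.inr G G) with hN
  let f : D →* G := (MonoidHom.fst G G).comp D.subtype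
  have h1 : Nat.card D = Nat.card N * Nat.card D1 := by
    rw [← f.ker.card_mul_index, index_ker]
    congr 1
    · refine Nat.card_congr ⟨fun x => ⟨x.1.1.2, ?_⟩, fun b => ⟨⟨(1, b.1), b.2⟩, rfl⟩, ?_, ?_⟩
      · have h2 : x.1.1.1 = 1 := x.2
        have h3 : (x.1.1.1, x.1.1.2) ∈ D := x.1.2
        rw [h2] at h3
        exact h3
      · rintro ⟨⟨⟨a, b⟩, h⟩, h2⟩
        have h3 : a = 1 := h2
        subst h3
        rfl
      · rintro ⟨b, h⟩
        rfl
    · refine Nat.card_congr (Equiv.subtypeEquivRight fun x => ?_)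
      constructor
      · rintro ⟨y, rfl⟩
        exact ⟨y.1, y.2, rfl⟩
      · rintro ⟨y, hy, rfl⟩
        exact ⟨⟨y, hy⟩, rfl⟩
  have h2 := D.card_mul_index
  have h3 := D1.card_mul_index
  have h4 := N.card_mul_index
  have h5 : Nat.card (G × G) = Nat.card G * Nat.card G := Nat.card_prod _ _
  have h6 : Nat.card D * D.index = Nat.card D * (D1.index * N.index) := by
    rw [h2, h5, h1]
    calc Nat.card G * Nat.card G = (Nat.card D1 * D1.index) * (Nat.card N * N.index) := by rw [h3, h4]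
      _ = _ := by ring
  exact Nat.eq_of_mul_eq_mul_left Nat.card_pos h6

/-- swap of the two factors -/
theorem index_swap (D : Subgroup (G × G)) :
    (D.comap (MulEquiv.prodComm : G × G ≃* G × G).toMonoidHom).index = D.index :=
  Subgroup.index_comap_of_surjective _ (MulEquiv.prodComm : G × G ≃* G × G).surjective

theorem one_side (D : Subgroup (G × G)) {m : ℕ} (hm : ∀ H : Subgroup G, H ≠ ⊤ → m ≤ H.index)
    (hD : D.index < m * m) (h : ¬ ∀ b, (1, b) ∈ D) : ∀ a, ∃ b, (a, b) ∈ D := by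
  have h1 : D.comap (MonoidHom.inr G G) ≠ ⊤ := by
    intro h2
    apply h
    intro b
    have : b ∈ D.comap (MonoidHom.inr G G) := by rw [h2]; trivial
    exact this
  have h2 := hm _ h1
  have h3 : D.map (MonoidHom.fst G G) = ⊤ := by
    by_contra h4
    have h5 := hm _ h4
    have h6 := index_split D
    have h7 : m * m ≤ D.index := by
      rw [h6]
      exact Nat.mul_le_mul h5 h2
    omega
  intro a
  have : a ∈ D.map (MonoidHom.fst G G) := by rw [h3]; trivial
  obtain ⟨⟨a', b⟩, hb, rfl⟩ := this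
  exact ⟨b, hb⟩

/-- **Goursat** for subgroups of small index. -/
theorem goursat (D : Subgroup (G × G)) {m : ℕ} (hm : ∀ H : Subgroup G, H ≠ ⊤ → m ≤ H.index)
    (hD : D.index < m * m) : (∀ a, (a, 1) ∈ D) ∨ (∀ b, (1, b) ∈ D) ∨
    ((∀ a, ∃ b, (a, b) ∈ D) ∧ ∃ N : Subgroup G, N.Normal ∧ N ≠ ⊤ ∧ N.index ≤ D.index ∧ ∀ b, b ∈ N ↔ (1, b) ∈ D) := by
  by_cases h1 : ∀ b, (1, b) ∈ D
  · exact Or.inr (Or.inl h1)
  by_cases h2 : ∀ a, (a, 1) ∈ D
  · exact Or.inl h2
  refine Or.inr (Or.inr ⟨one_side D hm hD h1, D.comap (MonoidHom.inr G G), ?_, ?_, ?_, fun b => Iff.rfl⟩)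
  · have h3 := one_side (D.comap (MulEquiv.prodComm : G × G ≃* G × G).toMonoidHom) hm
      (by rw [index_swap]; exact hD) h2
    constructor
    intro n hn g
    obtain ⟨a, ha⟩ := h3 g
    have ha' : (a, g) ∈ D := ha
    have h4 := D.mul_mem (D.mul_mem ha' (show (1, n) ∈ D from hn)) (D.inv_mem ha')
    rw [Prod.mk_mul_mk, Prod.inv_mk, Prod.mk_mul_mk, mul_one, mul_inv_cancel] at h4
    exact h4
  · intro h3
    apply h1
    intro b
    have : b ∈ D.comap (MonoidHom.inr G G) := by rw [h3]; trivial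
    exact this
  · rw [index_split D]
    refine Nat.le_mul_of_pos_left _ (Nat.pos_of_ne_zero ?_)
    exact Subgroup.index_ne_zero_of_finite

end Cfsg.Agent.H358.IF
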