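import Cfsg.Agent.H358.IF.Blk
import Cfsg.Agent.H358.IF.Gour
import Cfsg.Agent.S0242
import Cfsg.Agent.SignalizersComponents.SLQuasisimple
import Cfsg.Agent.SignalizersComponents.QsBasic
import Cfsg.Agent.ClassicalGeometry.PSL2Basic

/-!
# S5719, cell `PSL four` (helper358): the involution `t0 = diag(-1,-1,1,1)`
-/

set_option autoImplicit false
set_option linter.unusedSectionVars false

namespace Cfsg.Agent.H358.IF

open Matrix Cfsg.Agent.H209.Fxy

variable {F : Type} [Field F]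

section Fin

variable [Fintype F]

theorem card_S4_aux {q : ℕ} (hq : 2 ≤ q) {x : ℕ} (h : (q - 1) * x = (q ^ 4 - 1) * (q ^ 4 - q) * (q ^ 4 - q ^ 2) * (q ^ 4 - q ^ 3)) :
    x = q ^ 6 * ((q ^ 4 - 1) * (q ^ 3 - 1) * (q ^ 2 - 1)) := by
  have h1 : q ^ 4 - q = q * (q ^ 3 - 1) := by rw [Nat.mul_sub]; ring_nf
  have h2 : q ^ 4 - q ^ 2 = q ^ 2 * (q ^ 2 - 1) := by rw [Nat.mul_sub]; ring_nf
  have h3 : q ^ 4 - q ^ 3 = q ^ 3 * (q - 1) := by rw [Nat.mul_sub]; ring_nf
  rw [h1, h2, h3] at h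
  apply Nat.eq_of_mul_eq_mul_left (show 0 < q - 1 by omega)
  rw [h]
  ring

theorem card_S4 : Nat.card (S4 F) = Fintype.card F ^ 6 *
    ((Fintype.card F ^ 4 - 1) * (Fintype.card F ^ 3 - 1) * (Fintype.card F ^ 2 - 1)) := by
  have h1 := Cfsg.Agent.S0242.result (F := F) rfl 4 (by norm_num)
  rw [Fin.prod_univ_four] at h1
  have h2 : Nat.card (S4 F) = Nat.card (SpecialLinearGroup (Fin 4) F) :=
    Nat.card_congr (slR (F := F) (finSumFinEquiv : Fin 2 ⊕ Fin 2 ≃ Fin 4)).toEquiv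
  rw [h2]
  apply card_S4_aux Fintype.one_lt_card
  simpa using h1

theorem card_S2 : Nat.card (S2 F) = Fintype.card F * (Fintype.card F ^ 2 - 1) := by
  have h1 := Cfsg.Agent.S0242.result (F := F) rfl 2 (by norm_num)
  rw [Fin.prod_univ_two] at h1
  have hq : 2 ≤ Fintype.card F := Fintype.one_lt_card
  apply Nat.eq_of_mul_eq_mul_left (show 0 < Fintype.card F - 1 by omega)
  rw [h1]
  have h3 : Fintype.card F ^ 2 - Fintype.card F ^ 1 = (Fintype.card F - 1) * Fintype.card F := by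
    rw [Nat.sub_mul, one_mul, pow_one, pow_two]
  simp only [Fin.val_zero, Fin.val_one, pow_zero]
  rw [h3]
  ring

theorem card_G2 : Nat.card (GL (Fin 2) F) = (Fintype.card F ^ 2 - 1) * (Fintype.card F * (Fintype.card F - 1)) := by
  rw [Matrix.card_GL_field, Fin.prod_univ_two]
  have h3 : Fintype.card F ^ 2 - Fintype.card F ^ 1 = Fintype.card F * (Fintype.card F - 1) := by
    rw [Nat.mul_sub, mul_one, pow_one, pow_two]
  simp only [Fin.val_zero, Fin.val_one, pow_zero]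
  rw [h3]

end Fin

/-- the element exchanging the blocks -/
def w0 : S4 F := up (Multiplicative.ofAdd 1) * lo (Multiplicative.ofAdd (-1)) * up (Multiplicative.ofAdd 1)

theorem w0_val : (w0 : S4 F).val = fromBlocks 0 1 (-1) 0 := by
  show (up (Multiplicative.ofAdd 1)).val * (lo (Multiplicative.ofAdd (-1))).val * (up (Multiplicative.ofAdd 1)).val = _
  rw [up_val, lo_val, fromBlocks_multiply, fromBlocks_multiply]
  simp

/-- `diag(-1,-1,1,1)` -/
def t0 : S4 F := dg (-1) 1 (by rw [det_neg]; simp)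

theorem t0_val : (t0 : S4 F).val = fromBlocks (-1) 0 0 1 := rfl

theorem ord_t0 (h2 : (2 : F) ≠ 0) : orderOf (pr (t0 : S4 F)) = 2 := by
  apply ord_pr (c := 1)
  · rw [t0_val, fromBlocks_multiply]
    simp
  · intro d hd
    have h3 := congrFun (congrFun hd (Sum.inl 0)) (Sum.inl 0)
    have h4 := congrFun (congrFun hd (Sum.inr 0)) (Sum.inr 0)
    rw [t0_val] at h3 h4
    simp at h3 h4
    apply h2
    linear_combination h4 - h3

theorem det_ne (g : GL (Fin 2) F) : g.val.det ≠ 0 := ((Matrix.isUnit_iff_isUnit_det _).1 g.isUnit).ne_zero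

theorem det_aux (g : GL (Fin 2) F) (s : S2 F) : g.val.det * (s.val * !![(g.val.det)⁻¹, 0; 0, 1]).det = 1 := by
  rw [det_mul, s.2, det_fin_two_of, one_mul, mul_one, zero_mul, sub_zero, mul_inv_cancel₀ (det_ne g)]

/-- the elements commuting with `t0` modulo scalars -/
def Phi (x : Bool × GL (Fin 2) F × S2 F) : S4 F :=
  if x.1 then w0 * dg x.2.1.val (x.2.2.val * !![(x.2.1.val.det)⁻¹, 0; 0, 1]) (det_aux _ _)
  else dg x.2.1.val (x.2.2.val * !![(x.2.1.val.det)⁻¹, 0; 0, 1]) (det_aux _ _)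

theorem dg_comm (d e : M2 F) (h : d.det * e.det = 1) : dg d e h * t0 = t0 * dg d e h := by
  apply Subtype.ext
  show (dg d e h).val * (t0 : S4 F).val = (t0 : S4 F).val * (dg d e h).val
  rw [dg_val, t0_val, fromBlocks_multiply, fromBlocks_multiply]
  simp

theorem w0_comm (y : S4 F) (hy : y * t0 = t0 * y) : pr (w0 * y * t0) = pr (t0 * (w0 * y)) := by
  rw [pr_eq_iff]
  refine ⟨-1, ?_⟩
  rw [mul_assoc, hy, ← mul_assoc, ← mul_assoc]
  show (t0 : S4 F).val * (w0 : S4 F).val * y.val = (-1 : F) • ((w0 : S4 F).val * (t0 : S4 F).val * y.val)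
  rw [← Matrix.smul_mul]
  congr 1
  rw [w0_val, t0_val, fromBlocks_multiply, fromBlocks_multiply, fromBlocks_smul]
  simp

theorem Phi_comm (x : Bool × GL (Fin 2) F × S2 F) : pr (Phi x * t0) = pr (t0 * Phi x) := by
  obtain ⟨b, g, s⟩ := x
  cases b
  · exact congrArg pr (dg_comm _ _ (det_aux g s))
  · exact w0_comm _ (dg_comm _ _ (det_aux g s))

theorem Phi_val_false (g : GL (Fin 2) F) (s : S2 F) :
    (Phi (false, g, s)).val = fromBlocks g.val 0 0 (s.val * !![(g.val.det)⁻¹, 0; 0, 1]) := rfl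

theorem Phi_val_true (g : GL (Fin 2) F) (s : S2 F) :
    (Phi (true, g, s)).val = fromBlocks 0 (s.val * !![(g.val.det)⁻¹, 0; 0, 1]) (-g.val) 0 := by
  show (w0 : S4 F).val * (dg _ _ _).val = _
  rw [w0_val, dg_val, fromBlocks_multiply]
  simp

theorem diag_cancel {d : F} (hd : d ≠ 0) {a b : M2 F} (h : a * !![d⁻¹, 0; 0, 1] = b * !![d⁻¹, 0; 0, 1]) : a = b := by
  have h1 : (!![d⁻¹, 0; 0, 1] : M2 F) * !![d, 0; 0, 1] = 1 := by
    ext i j
    fin_cases i <;> fin_cases j <;> simp [Matrix.mul_apply, Fin.sum_univ_two, inv_mul_cancel₀ hd]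
  have h2 := congrArg (· * (!![d, 0; 0, 1] : M2 F)) h
  simp only [mul_assoc, h1, mul_one] at h2
  exact h2

theorem Phi_inj : Function.Injective (Phi : Bool × GL (Fin 2) F × S2 F → S4 F) := by
  rintro ⟨b, g, s⟩ ⟨b', g', s'⟩ h
  have h1 := congrArg Subtype.val h
  cases b <;> cases b'
  · rw [Phi_val_false, Phi_val_false, fromBlocks_inj] at h1
    obtain ⟨h3, -, -, h4⟩ := h1
    have h5 : g = g' := Units.ext h3
    subst h5
    rw [Subtype.ext (diag_cancel (det_ne g) h4)]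
  · rw [Phi_val_false, Phi_val_true, fromBlocks_inj] at h1
    exact absurd h1.1 (fun h6 => det_ne g (by rw [h6, det_zero]))
  · rw [Phi_val_true, Phi_val_false, fromBlocks_inj] at h1
    exact absurd h1.1.symm (fun h6 => det_ne g' (by rw [h6, det_zero]))
  · rw [Phi_val_true, Phi_val_true, fromBlocks_inj] at h1
    obtain ⟨-, h4, h3, -⟩ := h1
    have h5 : g = g' := Units.ext (neg_injective h3)
    subst h5
    rw [Subtype.ext (diag_cancel (det_ne g) h4)]

section Fin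

variable [Fintype F] {A : Subgroup (P4 F)}

theorem card_Phi : (Set.range (Phi : Bool × GL (Fin 2) F × S2 F → S4 F)).ncard =
    2 * (((Fintype.card F ^ 2 - 1) * (Fintype.card F * (Fintype.card F - 1))) * (Fintype.card F * (Fintype.card F ^ 2 - 1))) := by
  rw [← Nat.card_coe_set_eq, Nat.card_range_of_injective Phi_inj, Nat.card_prod, Nat.card_prod, card_G2, card_S2,
    Nat.card_eq_fintype_card, Fintype.card_bool]

theorem num1 {q x : ℕ} (hq : 2 ≤ q) (h : x * (2 * (((q ^ 2 - 1) * (q * (q - 1))) * (q * (q ^ 2 - 1)))) <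
    q ^ 6 * ((q ^ 4 - 1) * (q ^ 3 - 1) * (q ^ 2 - 1))) : 2 * x < q ^ 4 * (q ^ 2 + q + 1) * (q ^ 2 + 1) := by
  obtain ⟨r, rfl⟩ : ∃ r, q = r + 1 := ⟨q - 1, by omega⟩
  have e2 : (r + 1) ^ 2 - 1 = r * (r + 2) := by
    have : (r + 1) ^ 2 = r * (r + 2) + 1 := by ring
    omega
  have e3 : (r + 1) ^ 3 - 1 = r * ((r + 1) ^ 2 + (r + 1) + 1) := by
    have : (r + 1) ^ 3 = r * ((r + 1) ^ 2 + (r + 1) + 1) + 1 := by ring
    omega
  have e4 : (r + 1) ^ 4 - 1 = r * (r + 2) * ((r + 1) ^ 2 + 1) := by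
    have : (r + 1) ^ 4 = r * (r + 2) * ((r + 1) ^ 2 + 1) + 1 := by ring
    omega
  rw [e2, e3, e4, Nat.add_sub_cancel] at h
  have hr : 0 < r := by omega
  have h5 : (2 * x) * ((r + 1) ^ 2 * r ^ 3 * (r + 2) ^ 2) <
      ((r + 1) ^ 4 * ((r + 1) ^ 2 + (r + 1) + 1) * ((r + 1) ^ 2 + 1)) * ((r + 1) ^ 2 * r ^ 3 * (r + 2) ^ 2) := by
    calc (2 * x) * ((r + 1) ^ 2 * r ^ 3 * (r + 2) ^ 2) =
        x * (2 * (r * (r + 2) * ((r + 1) * r) * ((r + 1) * (r * (r + 2))))) := by ring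
      _ < _ := h
      _ = _ := by ring
  exact lt_of_mul_lt_mul_right h5 (Nat.zero_le _)

/-- the preimage of `A` in `SL2 × SL2` -/
abbrev Dt (A : Subgroup (P4 F)) : Subgroup (S2 F × S2 F) := (At A).comap blk

theorem idx_t0 (h2 : (2 : F) ≠ 0) (h : IFA A) (ht : t0 ∈ At A) :
    2 * (Dt A).index ^ 5 < Fintype.card F ^ 4 * (Fintype.card F ^ 2 + Fintype.card F + 1) * (Fintype.card F ^ 2 + 1) ∧
    (Dt A).index ^ 6 < (At A).index := by
  have h1 := h.key (by simp) ht (ord_t0 h2) (B := blk.range) (by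
    rintro _ ⟨⟨a, b⟩, rfl⟩
    exact congrArg pr (dg_comm _ _ (det_dg_aux a b))) (C := Set.range Phi) (by
    rintro _ ⟨x, rfl⟩
    exact Phi_comm x)
  rw [← Subgroup.index_comap, card_Phi, card_S4] at h1
  exact ⟨num1 Fintype.one_lt_card h1.1, h1.2.1⟩

/-- the lower bound for the index of a proper subgroup of `SL2(q)` -/
def MIodd (F : Type) [Field F] [Fintype F] : Prop :=
  ∀ H : Subgroup (S2 F), H ≠ ⊤ →
    Fintype.card F ^ 4 * (Fintype.card F ^ 2 + Fintype.card F + 1) * (Fintype.card F ^ 2 + 1) ≤ 2 * H.index ^ 10 ∧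
    Fintype.card F ^ 4 ≤ H.index ^ 6

/-- **(L1)**, `q ≥ 5`. -/
theorem L1_five (h2 : (2 : F) ≠ 0) (h5 : 5 ≤ Fintype.card F) (hMI : MIodd F) (h : IFA A) (ht : t0 ∈ At A) :
    (∀ a : S2 F, blk (a, 1) ∈ At A) ∨ (∀ b : S2 F, blk (1, b) ∈ At A) := by
  obtain ⟨h3, -⟩ := idx_t0 h2 h ht
  have hne : ({H : Subgroup (S2 F) | H ≠ ⊤}).Nonempty := by
    refine ⟨⊥, ?_⟩
    intro h4
    have h5' := congrArg (fun H : Subgroup (S2 F) => Nat.card H) h4
    simp only [Subgroup.card_bot, Subgroup.card_top] at h5'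
    rw [card_S2] at h5'
    have h6 : 2 ≤ Fintype.card F ^ 2 - 1 := by
      have : 5 ^ 2 ≤ Fintype.card F ^ 2 := Nat.pow_le_pow_left h5 2
      omega
    have h7 : 5 * 2 ≤ Fintype.card F * (Fintype.card F ^ 2 - 1) := Nat.mul_le_mul h5 h6
    omega
  obtain ⟨H0, hH0, hmin⟩ := Set.exists_min_image _ (fun H : Subgroup (S2 F) => H.index) (Set.toFinite _) hne
  have h4 := (hMI H0 hH0).1
  have h6 : (Dt A).index < H0.index * H0.index := by
    have h7 : (Dt A).index ^ 5 < (H0.index * H0.index) ^ 5 := by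
      have : (H0.index * H0.index) ^ 5 = H0.index ^ 10 := by ring
      omega
    exact lt_of_pow_lt_pow_left₀ 5 (Nat.zero_le _) h7
  rcases goursat (Dt A) (fun H hH => hmin H hH) h6 with h7 | h7 | ⟨-, N, hN, hNt, hNi, hNm⟩
  · exact Or.inl h7
  · exact Or.inr h7
  · exfalso
    have hqs := SignalizersComponents.SLQuasisimple.isQuasisimple_two (F := F) (by
      rw [Nat.card_eq_fintype_card]; omega)
    have h8 := SignalizersComponents.QsBasic.normal_le_center_of_ne_top hqs N hNt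
    have h9 : Nat.card N ≤ 2 :=
      (Subgroup.card_le_of_le h8).trans (le_of_eq (ClassicalGeometry.PSL2Basic.card_center_SL2_odd h2))
    have h10 := N.card_mul_index
    rw [card_S2] at h10
    set q := Fintype.card F with hq
    have h11 : q * (q ^ 2 - 1) ≤ 2 * (Dt A).index := by
      rw [← h10]
      exact Nat.mul_le_mul h9 hNi
    have h12 : (q * (q ^ 2 - 1)) ^ 5 ≤ 32 * (Dt A).index ^ 5 := by
      calc (q * (q ^ 2 - 1)) ^ 5 ≤ (2 * (Dt A).index) ^ 5 := Nat.pow_le_pow_left h11 5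
        _ = _ := by ring
    have h13 : q ^ 2 ≤ 2 * (q ^ 2 - 1) := by
      have : 5 ^ 2 ≤ q ^ 2 := Nat.pow_le_pow_left h5 2
      omega
    have h14 : (q * q ^ 2) ^ 5 ≤ 32 * (q * (q ^ 2 - 1)) ^ 5 := by
      calc (q * q ^ 2) ^ 5 ≤ (q * (2 * (q ^ 2 - 1))) ^ 5 := Nat.pow_le_pow_left (Nat.mul_le_mul_left _ h13) 5
        _ = _ := by ring
    have h15 : q ^ 2 + q + 1 ≤ 2 * q ^ 2 := by nlinarith
    have h16 : q ^ 2 + 1 ≤ 2 * q ^ 2 := by nlinarith
    have h17 : q ^ 4 * (q ^ 2 + q + 1) * (q ^ 2 + 1) ≤ 4 * q ^ 8 := by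
      calc q ^ 4 * (q ^ 2 + q + 1) * (q ^ 2 + 1) ≤ q ^ 4 * (2 * q ^ 2) * (2 * q ^ 2) := by gcongr
        _ = _ := by ring
    have h18 : q ^ 15 < 2048 * q ^ 8 := by
      calc q ^ 15 = (q * q ^ 2) ^ 5 := by ring
        _ ≤ 32 * (32 * (Dt A).index ^ 5) := h14.trans (Nat.mul_le_mul_left _ h12)
        _ = 512 * (2 * (Dt A).index ^ 5) := by ring
        _ < 512 * (4 * q ^ 8) := by omega
        _ = _ := by ring
    have h19 : q ^ 7 < 2048 := by
      have : q ^ 8 * q ^ 7 < q ^ 8 * 2048 := by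
        calc q ^ 8 * q ^ 7 = q ^ 15 := by ring
          _ < _ := h18
          _ = _ := by ring
      exact lt_of_mul_lt_mul_left this (Nat.zero_le _)
    have h20 : 5 ^ 7 ≤ q ^ 7 := Nat.pow_le_pow_left h5 7
    omega

theorem tv_pow_three (h3 : (3 : F) = 0) {i j : Fin 2} (hij : i ≠ j) (a : F) :
    (SpecialLinearGroup.transvection hij a : S2 F) ^ 3 = 1 := by
  have h : ∀ a b : F, (SpecialLinearGroup.transvection hij a : S2 F) * SpecialLinearGroup.transvection hij b =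
      SpecialLinearGroup.transvection hij (a + b) := fun a b =>
    Subtype.ext (Matrix.transvection_mul_transvection_same i j hij a b)
  rw [pow_succ, pow_two, h, h, show a + a + a = 3 * a by ring, h3, zero_mul]
  exact Subtype.ext (Matrix.transvection_zero _ _)

/-- a subgroup of `SL2(3)` of index prime to 3 containing the transvections ... -/
theorem tv_top {N : Subgroup (S2 F)} (h : ∀ (i j : Fin 2) (hij : i ≠ j) (a : F), SpecialLinearGroup.transvection hij a ∈ N) :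
    N = ⊤ := by
  rw [← top_le_iff, ← LieClassical.SLGen.closure_transvections, Subgroup.closure_le]
  rintro _ ⟨i, j, hij, a, rfl⟩
  exact h i j hij a

theorem normal_three (h3 : (3 : F) = 0) {N : Subgroup (S2 F)} [N.Normal] (hN : N ≠ ⊤) : 3 ∣ N.index := by
  by_contra hcon
  apply hN
  apply tv_top
  intro i j hij a
  have h1 := N.pow_index_mem (SpecialLinearGroup.transvection hij a)
  have h2 := tv_pow_three h3 hij a
  have h4 : IsCoprime (N.index : ℤ) 3 := by
    rw [show (3 : ℤ) = ((3 : ℕ) : ℤ) by norm_num, Nat.isCoprime_iff_coprime, Nat.coprime_comm]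
    exact (Nat.Prime.coprime_iff_not_dvd Nat.prime_three).2 hcon
  obtain ⟨u, v, huv⟩ := h4
  have h5 : (SpecialLinearGroup.transvection hij a : S2 F) =
      ((SpecialLinearGroup.transvection hij a : S2 F) ^ N.index) ^ u * ((SpecialLinearGroup.transvection hij a : S2 F) ^ 3) ^ v := by
    rw [← zpow_natCast, ← zpow_natCast, ← _root_.zpow_mul, ← _root_.zpow_mul, ← _root_.zpow_add]
    rw [mul_comm (N.index : ℤ) u, mul_comm ((3 : ℕ) : ℤ) v]
    have : u * (N.index : ℤ) + v * ((3 : ℕ) : ℤ) = 1 := by exact_mod_cast huv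
    rw [this, zpow_one]
  rw [h5, h2, _root_.one_zpow, mul_one]
  exact N.zpow_mem h1 u

theorem mi_three (h3 : (3 : F) = 0) (H : Subgroup (S2 F)) (hH : H ≠ ⊤) : 3 ≤ H.index := by
  have h0 : H.index ≠ 0 := Subgroup.index_ne_zero_of_finite
  have h1 : H.index ≠ 1 := fun h => hH (Subgroup.index_eq_one.1 h)
  by_contra hcon
  have h2 : H.index = 2 := by omega
  have : H.Normal := Subgroup.normal_of_index_eq_two h2
  have h4 := normal_three h3 hH
  rw [h2] at h4
  omega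

/-- **(L1)**, `q = 3`. -/
theorem L1_three (hq : Fintype.card F = 3) (h : IFA A) (ht : t0 ∈ At A) :
    (∀ a : S2 F, blk (a, 1) ∈ At A) ∨ (∀ b : S2 F, blk (1, b) ∈ At A) ∨
    (∀ a : S2 F, a.val * a.val = -1 → blk (a, 1) ∈ At A ∧ blk (1, a) ∈ At A) := by
  have h3 : (3 : F) = 0 := by
    have := Nat.cast_card_eq_zero F
    rw [hq] at this
    exact_mod_cast this
  have h2 : (2 : F) ≠ 0 := by
    intro h2
    have : (1 : F) = 0 := by linear_combination h3 - h2
    exact one_ne_zero this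
  obtain ⟨h4, -⟩ := idx_t0 h2 h ht
  rw [hq] at h4
  have h5 : (Dt A).index < 6 := by
    by_contra hcon
    have h6 : 6 ^ 5 ≤ (Dt A).index ^ 5 := Nat.pow_le_pow_left (by omega) 5
    omega
  rcases goursat (Dt A) (mi_three h3) (by omega) with h7 | h7 | ⟨hall, N, hN, hNt, hNi, hNm⟩
  · exact Or.inl h7
  · exact Or.inr (Or.inl h7)
  · right
    right
    have h8 := normal_three h3 hNt
    have h9 : N.index ≠ 0 := Subgroup.index_ne_zero_of_finite
    have h10 : N.index = 3 := by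
      obtain ⟨k, hk⟩ := h8
      omega
    have h11 : ∀ b : S2 F, b ^ 3 ∈ N := by
      intro b
      rw [← h10]
      exact N.pow_index_mem b
    have hfour : ∀ a : S2 F, a.val * a.val = -1 → a ^ 4 = 1 := by
      intro a ha
      apply Subtype.ext
      show a.val ^ 4 = 1
      rw [show 4 = 2 + 2 by norm_num, pow_add, pow_two, ha, neg_mul_neg, one_mul]
    intro a ha
    have h12 : a ∈ N := by
      have h13 := N.mul_mem (h11 a) (N.mul_mem (h11 a) (h11 a))
      rw [← pow_add, ← pow_add] at h13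
      norm_num at h13
      rwa [show 9 = 4 + 4 + 1 by norm_num, pow_add, pow_add, hfour a ha, one_mul, one_mul, pow_one] at h13
    refine ⟨?_, (hNm a).1 h12⟩
    obtain ⟨b, hb⟩ := hall a
    have h14 : (a, b) ^ 3 ∈ Dt A := (Dt A).pow_mem hb 3
    have h15 : ((1 : S2 F), b ^ 3) ∈ Dt A := (hNm _).1 (h11 b)
    have h16 : (a ^ 3, (1 : S2 F)) ∈ Dt A := by
      have := (Dt A).mul_mem h14 ((Dt A).inv_mem h15)
      rw [Prod.pow_mk, Prod.inv_mk, Prod.mk_mul_mk, inv_one, mul_one, mul_inv_cancel] at this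
      exact this
    have h17 := (Dt A).pow_mem h16 3
    rw [Prod.pow_mk, one_pow, ← pow_mul, show 3 * 3 = 4 + 4 + 1 by norm_num, pow_add, pow_add, hfour a ha, one_mul,
      one_mul, pow_one] at h17
    exact h17

end Fin

end Cfsg.Agent.H358.IF
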